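import Cfsg.Agent.H381.SzOuter
import Cfsg.Agent.H381.SzNonsol

/-!
# Recognition of `Sz(q) × Sz(q)` by its element orders
-/

set_option autoImplicit false
set_option linter.unusedSectionVars false

namespace Cfsg.Agent.H381.SzFinal

open Subgroup
open Cfsg (IsComponent layer fittingSubgroup generalizedFittingSubgroup Out Inn)
open Cfsg.Agent.SignalizersComponents
open Cfsg.Agent.H381.SzSpec
open Cfsg.Agent.H381.SzComp
open Cfsg.Agent.H381.SzCore
open Cfsg.Agent.H381.SzRed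
open Cfsg.Agent.H381.SzPair
open Cfsg.Agent.H381.SzMain
open Cfsg.Agent.H381.SzSmall
open Cfsg.Agent.H381.SzTwoGen
open Cfsg.Agent.H381.SzOuter

variable {F : Type*} [Field F] [Fintype F] {m : ℕ}

/-- **Recognition of `Sz(q) × Sz(q)`** among nonsolvable groups. -/
theorem main (hm : 1 ≤ m) (hm2 : m ≠ 2) (hF : Fintype.card F = 2 ^ (2 * m + 1)) {G : Type*} [Group G]
    [Finite G] (hG : OrdLe F m G) (hG' : ∀ x : LS F m × LS F m, ∃ g : G, orderOf g = orderOf x)
    (hns : ¬ Group.IsSolvable G) : Nonempty (G ≃* LS F m × LS F m) := by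
  obtain ⟨S, hSc, hS, hmax⟩ := ComponentExists.exists_solvableRadical G
  have hSn : S.Normal := inferInstance
  have hfit := fitting_quot hS hmax
  have hnt : Nontrivial (G ⧸ S) := by
    rw [QuotientGroup.nontrivial_iff]
    rintro rfl
    exact hns (Group.isSolvable_of_isSolvable_injective (f := (Subgroup.topEquiv (G := G)).symm.toMonoidHom)
      (Subgroup.topEquiv (G := G)).symm.injective)
  have hf := QuotientGroup.mk'_surjective S
  have hQ : OrdLe F m (G ⧸ S) := hG.map hf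
  have hker : Group.IsSolvable (QuotientGroup.mk' S).ker := by
    rw [QuotientGroup.ker_mk']; exact hS
  rcases structure_of hm hF hQ hfit with ⟨K, hK, hKn, hKc⟩ | ⟨K₁, K₂, h₁, h₂, hP⟩
  · exfalso
    obtain ⟨F', hf', hff, m', hm', hF', hdvd, ⟨e⟩⟩ := component hm hF hQ hfit hK
    have hpow : ∀ x : G ⧸ S, x ^ (2 * m' + 1) ∈ K := by
      intro x
      obtain ⟨k, hk, hkx⟩ := pow_mem hm' hF' e (x := x) (by rw [normalizer_eq_top]; exact mem_top x)
      rw [hKc, mem_bot, inv_mul_eq_one] at hkx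
      rwa [← hkx]
    by_cases hmm : m' = m
    · subst hmm
      obtain ⟨e'⟩ := iso_of_card_eq (m := m') hF hF'
      exact one_component_false hm hF hG hG' hf hker (e.trans e') hpow
    · exact one_small_false hm hF hG hG' hf hker hm' hF' hdvd hmm e hpow
  · obtain ⟨F₁, hf₁, hff₁, m₁, hm₁, hF₁, hd₁, ⟨e₁⟩⟩ := component hm hF hQ hfit h₁
    obtain ⟨F₂, hf₂, hff₂, m₂, hm₂', hF₂, hd₂, ⟨e₂⟩⟩ := component hm hF hQ hfit h₂
    have E₁ := full_field hm hF hG hG' hf hker hP hm₁ hF₁ hd₁ e₁ hm₂' hF₂ hd₂ e₂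
    have E₂ := full_field hm hF hG hG' hf hker hP.symm hm₂' hF₂ hd₂ e₂ hm₁ hF₁ hd₁ e₁
    subst E₁
    subst E₂
    obtain ⟨e₁'⟩ := iso_of_card_eq (m := m₂) hF hF₁
    obtain ⟨e₂'⟩ := iso_of_card_eq (m := m₂) hF hF₂
    have hno : ∀ x : G ⧸ S, x ∈ normalizer (K₁ : Set (G ⧸ S)) → x ∈ normalizer (K₂ : Set (G ⧸ S)) →
        ∃ a ∈ K₁, ∃ b ∈ K₂, x = a * b := fun x hx₁ hx₂ =>
      no_outer hm hm2 hF hQ hP (e₁.trans e₁') (e₂.trans e₂') hx₁ hx₂
    refine two_components hm hF hG hf hker (e₁.trans e₁') (e₂.trans e₂') hP ?_ ?_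
    · intro x hx₁ hx₂
      obtain ⟨a, ha, b, hb, rfl⟩ := hno x hx₁ hx₂
      exact ⟨a, ha, by rw [inv_mul_cancel_left]; exact hP.symm.mem_cent hb⟩
    · intro x hx₁ hx₂
      obtain ⟨a, ha, b, hb, rfl⟩ := hno x hx₁ hx₂
      refine ⟨b, hb, ?_⟩
      rw [(hP.comm a ha b hb).eq, inv_mul_cancel_left]
      exact hP.mem_cent ha

end Cfsg.Agent.H381.SzFinal
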