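import Cfsg.Agent.H381.SzTwo
import Cfsg.Agent.H381.SzSmall

/-!
# Two components, possibly over smaller fields
-/

set_option autoImplicit false
set_option linter.unusedSectionVars false

namespace Cfsg.Agent.H381.SzTwoGen

open Subgroup
open Cfsg (IsComponent layer fittingSubgroup generalizedFittingSubgroup Out Inn piCoreOf fittingOf IsPiHallOf)
open Cfsg.Agent.SignalizersComponents
open Cfsg.Agent.H98.SzPartition (torusOrders mem_torusOrders_iff odd_of_mem one_lt_of_mem eq_of_prime_dvd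
  sylow_or_torus)
open Cfsg.Agent.H381.SzSpec
open Cfsg.Agent.H381.SzComp
open Cfsg.Agent.H381.SzCore
open Cfsg.Agent.H381.SzRed
open Cfsg.Agent.H381.SzPair
open Cfsg.Agent.H381.SzMain
open Cfsg.Agent.H381.SzOne
open Cfsg.Agent.H381.SzTwo
open Cfsg.Agent.H381.SzGen
open Cfsg.Agent.H381.SzEight
open Cfsg.Agent.H381.SzSmall
open Cfsg.Agent.H381.Cover
open Cfsg.Agent.H381.Tools
open Cfsg.Agent.H381.Lucido

section abstract

universe u v w

variable {ty v : ℕ → ℕ} {E : Type u} [Group E] [Finite E] {T : Type v} [Group T] {L₁ L₂ : Type w}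
  [Group L₁] [Group L₂]

/-- **Two factors**: the primes of the kernel have type `1`. -/
theorem ker_type_one (hty : TyHyp ty) (W : WHyp ty v E) (hL₁ : KHyp ty L₁) (hL₂ : KHyp ty L₂)
    {f : E →* T} {ι₁ : L₁ →* T} {ι₂ : L₂ →* T} (h₁ : Function.Injective ι₁)
    (h₂ : Function.Injective ι₂) (hcomm : ∀ a b, Commute (ι₁ a) (ι₂ b)) (hS : Group.IsSolvable f.ker)
    (hc₁ : Cov f ι₁ ⊤) (hc₂ : Cov f ι₂ ⊤) {r : ℕ} (hr : r.Prime) (hrd : r ∣ Nat.card f.ker) :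
    ty r = 1 := by
  have norm : ∀ {r : ℕ} {R : Subgroup E}, IsPiHallOf {r} R f.ker →
      Cov f ι₁ (normalizer (R : Set E)) ∧ Cov f ι₂ (normalizer (R : Set E)) := by
    intro r R hR
    have h3 := hc₁.frattini hS le_top (by rw [normalizer_eq_top]) le_rfl hR
    have h4 := hc₂.frattini hS le_top (by rw [normalizer_eq_top]) le_rfl hR
    rw [top_inf_eq] at h3 h4
    exact ⟨h3, h4⟩
  -- the kernel has odd order
  have hodd : ¬ 2 ∣ Nat.card f.ker := by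
    intro h2
    obtain ⟨R, hR, hRr⟩ := exists_hall hS Nat.prime_two
    obtain ⟨n1, n2⟩ := norm hR
    obtain ⟨z, hz, hzr⟩ := exists_mem_of_dvd Nat.prime_two
      (Cfsg.Agent.OddOrderLocal.HallPi.prime_dvd_card hR Nat.prime_two (Set.mem_singleton 2) h2)
    exact not_cov2 W hL₁.toLHyp0 hL₂.toLHyp0 h₁ h₂ hcomm Nat.prime_two hzr
      (inf_le_right.trans (centralizer_le (by simpa using hz)))
      (two_central W hL₁.toLHyp0 hS n1 le_rfl hRr) (two_central W hL₂.toLHyp0 hS n2 le_rfl hRr)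
  have hr2 : r ≠ 2 := by rintro rfl; exact hodd hrd
  obtain ⟨R, hR, hRr⟩ := exists_hall hS hr
  obtain ⟨n1, n2⟩ := norm hR
  have hrR := Cfsg.Agent.OddOrderLocal.HallPi.prime_dvd_card hR hr (Set.mem_singleton r) hrd
  obtain ⟨i, hi2, x, hix, hid⟩ : ∃ i : E, orderOf i = 2 ∧ ∃ x : L₁, f i = ι₁ x ∧
      r ∣ Nat.card (centralizer {i} ⊓ f.ker : Subgroup E) := by
    by_cases hc : Cov f ι₁ (normalizer (R : Set E) ⊓ centralizer (R : Set E))
    · obtain ⟨i, hi, hi2, x, -, hix⟩ := exists_involution W hL₁.toLHyp0 h₁ hc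
      refine ⟨i, hi2, x, hix, ?_⟩
      obtain ⟨z, hz, hzr⟩ := exists_mem_of_dvd hr hrR
      refine dvd_card_of_mem (mem_inf.mpr ⟨mem_cent_iff.mpr ?_, hR.1 hz⟩) hzr
      exact (mem_centralizer_iff.mp (mem_inf.mp hi).2 z hz).symm
    · obtain ⟨i, hi, hi2, x, hx, hix⟩ := exists_involution W hL₁.toLHyp0 h₁ n1
      refine ⟨i, hi2, x, hix, ?_⟩
      have hfix := fix_involution hL₁.toLHyp0 n1 le_rfl hc h₁ hi hi2 hx hix
      obtain ⟨z, hz, hzr⟩ := exists_mem_of_ne_bot hr (hRr.to_le inf_le_left) hfix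
      rw [mem_fix] at hz
      exact dvd_card_of_mem (mem_inf.mpr ⟨mem_cent_iff.mpr hz.2, hR.1 hz.1⟩) hzr
  have hci : Cov f ι₂ (centralizer {i}) :=
    cov_centralizer Nat.prime_two hodd hc₂ (k := 1) (by rw [hi2, pow_one])
      (fun y => by rw [hix]; exact hcomm x y)
  exact type_of_centralizer hty W hL₂ h₂ hS hi2 hci hr hr2 hid

end abstract

variable {F : Type*} [Field F] [Fintype F] {m : ℕ}

/-- the size estimate -/
theorem bound_le {m' : ℕ} (hd : (2 * m' + 1) ∣ (2 * m + 1)) (hm' : 1 ≤ m') (hne : m' ≠ m) :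
    (2 * m + 1) * 2 ^ (2 * m' + 2) ≤ 2 ^ (2 * m) := by
  obtain ⟨l, hl⟩ := hd
  have hl3 : 3 ≤ l := by
    by_contra hlt
    have : l = 0 ∨ l = 1 ∨ l = 2 := by omega
    rcases this with rfl | rfl | rfl <;> omega
  have h1 : 3 * (2 * m' + 1) ≤ 2 * m + 1 := by
    rw [hl, mul_comm]
    exact Nat.mul_le_mul_left _ hl3
  obtain ⟨k, hk⟩ : ∃ k, 2 * m = (k + 2) + (2 * m' + 2) := ⟨2 * m - 2 * m' - 4, by omega⟩
  have h2 : k < 2 ^ k := Nat.lt_two_pow_self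
  have h3 : 2 ^ (k + 2) = 4 * 2 ^ k := by rw [pow_add]; ring
  have h4 : 2 * m + 1 ≤ 2 ^ (k + 2) := by omega
  calc (2 * m + 1) * 2 ^ (2 * m' + 2) ≤ 2 ^ (k + 2) * 2 ^ (2 * m' + 2) := Nat.mul_le_mul_right _ h4
    _ = 2 ^ (2 * m) := by rw [hk, pow_add 2 (k + 2)]

section main

variable {G : Type*} [Group G] [Finite G] {Q : Type*} [Group Q]

/-- **Two components: the fields are full.** -/
theorem full_field [Finite Q] (hm : 1 ≤ m) (hF : Fintype.card F = 2 ^ (2 * m + 1)) (hG : OrdLe F m G)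
    (hG' : ∀ x : LS F m × LS F m, ∃ g : G, orderOf g = orderOf x) {f : G →* Q}
    (hf : Function.Surjective f) (hS : Group.IsSolvable f.ker) {K₁ K₂ : Subgroup Q}
    (hP : Pair K₁ K₂) {F₁ : Type} [Field F₁] [Fintype F₁] {m₁ : ℕ} (hm₁ : 1 ≤ m₁)
    (hF₁ : Fintype.card F₁ = 2 ^ (2 * m₁ + 1)) (hd₁ : (2 * m₁ + 1) ∣ (2 * m + 1)) (e₁ : K₁ ≃* LS F₁ m₁)
    {F₂ : Type} [Field F₂] [Fintype F₂] {m₂ : ℕ} (hm₂ : 1 ≤ m₂)
    (hF₂ : Fintype.card F₂ = 2 ^ (2 * m₂ + 1)) (hd₂ : (2 * m₂ + 1) ∣ (2 * m + 1)) (e₂ : K₂ ≃* LS F₂ m₂) :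
    m₁ = m := by
  by_contra hne
  set ι₁ : LS F₁ m₁ →* Q := K₁.subtype.comp e₁.symm.toMonoidHom with hι₁
  set ι₂ : LS F₂ m₂ →* Q := K₂.subtype.comp e₂.symm.toMonoidHom with hι₂
  have h₁ : Function.Injective ι₁ := K₁.subtype_injective.comp e₁.symm.injective
  have h₂ : Function.Injective ι₂ := K₂.subtype_injective.comp e₂.symm.injective
  have hm1 : ∀ x, ι₁ x ∈ K₁ := fun x => (e₁.symm x).2
  have hm2 : ∀ x, ι₂ x ∈ K₂ := fun x => (e₂.symm x).2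
  have hcomm : ∀ a b, Commute (ι₁ a) (ι₂ b) := fun a b => hP.comm _ (hm1 a) _ (hm2 b)
  have htop₁ : Cov f ι₁ ⊤ := by
    rw [Cov, ← MonoidHom.range_eq_map, MonoidHom.range_eq_top.mpr hf]
    exact le_top
  have htop₂ : Cov f ι₂ ⊤ := by
    rw [Cov, ← MonoidHom.range_eq_map, MonoidHom.range_eq_top.mpr hf]
    exact le_top
  have W := hG.whyp hm hF
  have hker : ∀ r : ℕ, r.Prime → r ∣ Nat.card f.ker → ty m r = 1 := fun r hr hrd =>
    ker_type_one (tyHyp m) W (khyp hm hm₁ hF₁ hd₁) (khyp hm hm₂ hF₂ hd₂) h₁ h₂ hcomm hS htop₁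
      htop₂ hr hrd
  -- an element of order `q² + 1`
  obtain ⟨a, ha⟩ := exists_N (F := F) hm hF 2
  obtain ⟨b, hb'⟩ := exists_N (F := F) hm hF 3
  obtain ⟨g, hg⟩ := hG' (a, b)
  have hcop := coprime_N hm (i := 2) (j := 3) (by norm_num) (by norm_num) (by norm_num)
  rw [Prod.orderOf_mk, ha, hb', hcop.lcm_eq_mul] at hg
  have hc : (N m 2 * N m 3).Coprime (Nat.card f.ker) := by
    rw [Nat.coprime_iff_gcd_eq_one]
    by_contra hne
    obtain ⟨p, hp, hpd⟩ := Nat.exists_prime_and_dvd hne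
    have h1 := hker p hp (hpd.trans (Nat.gcd_dvd_right _ _))
    rcases (Nat.Prime.dvd_mul hp).mp (hpd.trans (Nat.gcd_dvd_left _ _)) with h2 | h2
    · rw [ty_N hm (by norm_num) hp h2] at h1; omega
    · rw [ty_N hm (by norm_num) hp h2] at h1; omega
  have hfg := card_ker_coprime hg hc
  have hN : N m 2 * N m 3 = 2 ^ (2 * (2 * m + 1)) + 1 := by
    rw [← mul_eq m, mul_comm]; rfl
  rw [hN] at hfg
  -- the square of `f g` normalises both components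
  have hsq : ∀ y : Q, y ^ 2 ∈ normalizer (K₁ : Set Q) ∧ y ^ 2 ∈ normalizer (K₂ : Set Q) := by
    intro y
    rcases hP.perm y with h | h
    · exact ⟨pow_mem h.1 2, pow_mem h.2 2⟩
    · constructor
      · rw [mem_normalizer_iff]
        intro z
        rw [(h z).1, (h _).2, pow_two]
        simp only [mul_assoc, mul_inv_rev]
      · rw [mem_normalizer_iff]
        intro z
        rw [(h z).2, (h _).1, pow_two]
        simp only [mul_assoc, mul_inv_rev]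
  have hpow : ∀ {K : Subgroup Q} {F' : Type} [Field F'] [Fintype F'] {m' : ℕ}, 1 ≤ m' →
      Fintype.card F' = 2 ^ (2 * m' + 1) → (2 * m' + 1) ∣ (2 * m + 1) → (K ≃* LS F' m') → ∀ y : Q,
      y ∈ normalizer (K : Set Q) → ∃ k ∈ K, k⁻¹ * y ^ (2 * m + 1) ∈ centralizer (K : Set Q) := by
    intro K F' _ _ m' hm' hF' hd e y hy
    obtain ⟨k, hk, hkc⟩ := pow_mem hm' hF' e hy
    obtain ⟨l, hl⟩ := hd
    refine ⟨k ^ l, pow_mem hk l, ?_⟩
    have h1 : Commute k (k⁻¹ * y ^ (2 * m' + 1)) := (mem_centralizer_iff.mp hkc k hk)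
    have h2 : y ^ (2 * m + 1) = k ^ l * (k⁻¹ * y ^ (2 * m' + 1)) ^ l := by
      rw [← h1.mul_pow, mul_inv_cancel_left, hl, pow_mul]
    rw [h2, inv_mul_cancel_left]
    exact pow_mem hkc l
  obtain ⟨hn1, hn2⟩ := hsq (f g)
  obtain ⟨c, hc1, d, hd2, hcd⟩ := hP.mul_eq (hpow hm₁ hF₁ hd₁ e₁ _ hn1) (hpow hm₂ hF₂ hd₂ e₂ _ hn2)
  -- orders of `c` and `d`
  have hoc : orderOf c ≤ 2 ^ (2 * m₁ + 2) := by
    have h3 := orderOf_le hm₁ hF₁ (e₁ ⟨c, hc1⟩)
    rwa [MulEquiv.orderOf_eq, Subgroup.orderOf_mk] at h3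
  have hod : orderOf d ≤ 2 ^ (2 * m₂ + 2) := by
    have h3 := orderOf_le hm₂ hF₂ (e₂ ⟨d, hd2⟩)
    rwa [MulEquiv.orderOf_eq, Subgroup.orderOf_mk] at h3
  have h4 : (f g) ^ (2 * ((2 * m + 1) * (orderOf c * orderOf d))) = 1 := by
    have k1 : c ^ (orderOf c * orderOf d) = 1 := by rw [pow_mul, pow_orderOf_eq_one, one_pow]
    have k2 : d ^ (orderOf c * orderOf d) = 1 := by
      rw [mul_comm, pow_mul, pow_orderOf_eq_one, one_pow]
    rw [pow_mul, pow_mul, hcd, (hP.comm c hc1 d hd2).mul_pow, k1, k2, one_mul]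
  have h5 : 2 ^ (2 * (2 * m + 1)) + 1 ∣ 2 * ((2 * m + 1) * (orderOf c * orderOf d)) := by
    rw [← hfg]; exact orderOf_dvd_of_pow_eq_one h4
  have h6 : (2 ^ (2 * (2 * m + 1)) + 1).Coprime 2 := by
    rw [Nat.coprime_two_right]
    exact Even.add_one ((Nat.even_pow.mpr ⟨even_two, by omega⟩))
  have h7 := h6.dvd_of_dvd_mul_left h5
  have h8 : 0 < (2 * m + 1) * (orderOf c * orderOf d) :=
    Nat.mul_pos (by omega) (Nat.mul_pos (orderOf_pos c) (orderOf_pos d))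
  have h9 := Nat.le_of_dvd h8 h7
  have h10 : (2 * m + 1) * (orderOf c * orderOf d) ≤ 2 ^ (2 * (2 * m + 1)) := by
    have hm2 : 2 * m₂ + 1 ≤ 2 * m + 1 := Nat.le_of_dvd (by omega) hd₂
    calc (2 * m + 1) * (orderOf c * orderOf d)
        ≤ (2 * m + 1) * (2 ^ (2 * m₁ + 2) * 2 ^ (2 * m₂ + 2)) :=
          Nat.mul_le_mul_left _ (Nat.mul_le_mul hoc hod)
      _ = ((2 * m + 1) * 2 ^ (2 * m₁ + 2)) * 2 ^ (2 * m₂ + 2) := by ring
      _ ≤ 2 ^ (2 * m) * 2 ^ (2 * m₂ + 2) := Nat.mul_le_mul_right _ (bound_le hd₁ hm₁ hne)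
      _ = 2 ^ (2 * m + (2 * m₂ + 2)) := (pow_add 2 (2 * m) (2 * m₂ + 2)).symm
      _ ≤ 2 ^ (2 * (2 * m + 1)) := Nat.pow_le_pow_right (by norm_num) (by omega)
  omega

end main

end Cfsg.Agent.H381.SzTwoGen
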